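import Cfsg.Agent.H178.RG.Defs
import Cfsg.Agent.H262.Rg.Engine

/-!
# The coset lemma (S5714, TEAM RG, A1; helper466)
-/

set_option autoImplicit false

namespace Cfsg.Agent.H466.RG

open Cfsg Cfsg.Agent.H178.RG Cfsg.Agent.Characters

/-- nontrivial irreducible characters have degree at least `d` -/
theorem le_degree {T : Type} [Group T] [Finite T] {d : ℕ} (hdeg : H122.MinDeg T d) {χ : T → ℂ}
    (hχ : IsIrrCharacter T χ) (h1 : χ ≠ 1) : ∃ n : ℕ, d ≤ n ∧ χ 1 = n := by
  obtain ⟨n, ρ, hρ, rfl⟩ := hχ
  refine ⟨n, ?_, by rw [Representation.char_one, Module.finrank_fin_fun]⟩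
  have h2 := hdeg (Fin n → ℂ) ρ (by
    by_contra hcon
    push Not at hcon
    apply h1
    -- `ρ` is trivial
    have h3 : ∀ g, ρ.character g = ρ.character 1 := by
      intro g
      change LinearMap.trace ℂ _ (ρ g) = LinearMap.trace ℂ _ (ρ 1)
      rw [hcon g, hcon 1]
    have hT : Fintype T := Fintype.ofFinite T
    have h4 := Central.sum_char_mul_char_inv ρ hρ
    simp only [h3] at h4
    rw [Finset.sum_const, Finset.card_univ, nsmul_eq_mul, ← Nat.card_eq_fintype_card] at h4
    have hne : (Nat.card T : ℂ) ≠ 0 := by exact_mod_cast Nat.card_pos.ne'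
    have h5 : ρ.character 1 * ρ.character 1 = 1 := by
      apply mul_left_cancel₀ hne
      rw [h4, mul_one]
    rw [Representation.char_one, Module.finrank_fin_fun] at h5
    have h6 : n * n = 1 := by exact_mod_cast h5
    have h7 : n = 1 := Nat.eq_one_of_mul_eq_one_right h6
    ext g
    rw [h3, Representation.char_one, Module.finrank_fin_fun, h7]
    simp)
  rwa [Module.finrank_fin_fun] at h2

theorem coset_lemma {T : Type} [Group T] [Finite T] {A : Set T} (hA : NSet A) {δ : ℝ} (hδ : 0 < δ)
    (hAδ : δ * Nat.card T ≤ Nat.card A) {J : ℕ} (hJ : 1 ≤ J) {d : ℕ} (hd : 1 ≤ d) (hdeg : H122.MinDeg T d) {B : ℝ}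
    {x : T} (hx : Nice B J x) :
    (Nat.card {y : T // ∀ k < J, x ^ k * y ∉ A} : ℝ) ≤ Nat.card T * ((1 / J + √B / d) / δ) := by
  classical
  have hT : Fintype T := Fintype.ofFinite T
  have hfi := Core.finite_irr (G := T)
  have hFI := Fintype.ofFinite (IrrCharacter T)
  have hN : H262.Rg.Engine.Normal A := fun g hg h => hA h g hg
  have hG : (0 : ℝ) < Nat.card T := by exact_mod_cast Nat.card_pos
  have hd0 : (0 : ℝ) < d := by exact_mod_cast hd
  have hJ0 : (0 : ℝ) < J := by exact_mod_cast hJ
  have hs : 0 ≤ √B / d := by positivity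
  have h := H262.Rg.Engine.sum_card_miss_mul_le hN (Ω := Unit) (ι := Fin J) (fun _ i => x ^ (i : ℕ))
    (B := J + (J : ℝ) ^ 2 * (√B / d)) (by positivity) (by
      intro χ hχ hne
      rw [Fintype.sum_unique]
      obtain ⟨n, hn, hn1⟩ := le_degree hdeg hχ hne
      have hn0 : (0 : ℝ) < n := hd0.trans_le (by exact_mod_cast hn)
      have key : ∀ i j : Fin J, (χ (x ^ (j : ℕ) * (x ^ (i : ℕ))⁻¹) / χ 1).re ≤ (if i = j then 1 else 0) + √B / d := by
        intro i j
        by_cases hij : i = j
        · subst hij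
          rw [if_pos rfl, mul_inv_cancel, div_self (Core.isIrr_apply_one_ne_zero hχ), Complex.one_re]
          linarith
        · rw [if_neg hij, zero_add]
          refine (Complex.re_le_norm _).trans ?_
          rw [norm_div, hn1, Complex.norm_natCast]
          refine div_le_div₀ (Real.sqrt_nonneg _) ?_ hd0 (by exact_mod_cast hn)
          refine (H262.Rg.Engine.norm_le_sqrt ⟨χ, hχ⟩ _).trans ?_
          apply Real.sqrt_le_sqrt
          have hij' : (i : ℕ) ≠ j := fun h => hij (Fin.ext h)
          rcases lt_or_gt_of_ne hij' with hlt | hlt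
          · have e : x ^ (j : ℕ) * (x ^ (i : ℕ))⁻¹ = x ^ ((j : ℕ) - i) := (pow_sub x hlt.le).symm
            rw [e]
            exact hx _ (by omega) (by have := j.2; omega)
          · have e : x ^ (j : ℕ) * (x ^ (i : ℕ))⁻¹ = (x ^ ((i : ℕ) - j))⁻¹ := by
              rw [pow_sub x hlt.le, mul_inv_rev, inv_inv]
            rw [e]
            have e2 : Subgroup.centralizer ({(x ^ ((i : ℕ) - j))⁻¹} : Set T) =
                Subgroup.centralizer ({x ^ ((i : ℕ) - j)} : Set T) := by
              ext g
              rw [Subgroup.mem_centralizer_singleton_iff, Subgroup.mem_centralizer_singleton_iff]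
              constructor
              · intro h
                have : Commute g (x ^ ((i : ℕ) - j))⁻¹ := h
                exact (Commute.inv_right_iff.1 this)
              · intro h
                have : Commute g (x ^ ((i : ℕ) - j)) := h
                exact (Commute.inv_right_iff.2 this)
            rw [e2]
            exact hx _ (by omega) (by have := i.2; omega)
      refine (Finset.sum_le_sum fun i _ => Finset.sum_le_sum fun j _ => key i j).trans (le_of_eq ?_)
      simp only [Finset.sum_add_distrib, Finset.sum_ite_eq, Finset.mem_univ, if_true, Finset.sum_const,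
        Finset.card_univ, Fintype.card_fin, nsmul_eq_mul]
      ring)
  rw [Fintype.sum_unique] at h
  have e1 : Nat.card {y : T // ∀ i : Fin J, y * x ^ (i : ℕ) ∉ A} = Nat.card {y : T // ∀ k < J, x ^ k * y ∉ A} := by
    refine Nat.card_congr (Equiv.subtypeEquivRight fun y => ?_)
    have h2 : ∀ k : ℕ, y * x ^ k ∈ A ↔ x ^ k * y ∈ A := by
      intro k
      have := hN.iff (y * x ^ k) (x ^ k)
      rw [← this]
      have e : x ^ k * (y * x ^ k) * (x ^ k)⁻¹ = x ^ k * y := by group
      rw [e]
    exact ⟨fun h k hk hm => h ⟨k, hk⟩ ((h2 k).2 hm), fun h i hm => h i i.2 ((h2 i).1 hm)⟩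
  rw [e1, Fintype.card_fin] at h
  set m : ℝ := (Nat.card {y : T // ∀ k < J, x ^ k * y ∉ A} : ℝ) with hm
  have hm0 : 0 ≤ m := by rw [hm]; positivity
  have hdens : δ ≤ H262.Rg.Engine.dens A := by
    unfold H262.Rg.Engine.dens
    rw [le_div_iff₀ hG]
    exact hAδ
  have h3 : m * (δ * (J : ℝ) ^ 2) ≤ Nat.card T * (J + (J : ℝ) ^ 2 * (√B / d)) := by
    refine le_trans ?_ h
    gcongr
  have h4 : (Nat.card T : ℝ) * ((1 / J + √B / d) / δ) =
      Nat.card T * (J + (J : ℝ) ^ 2 * (√B / d)) / (δ * (J : ℝ) ^ 2) := by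
    field_simp
  rw [h4, le_div_iff₀ (by positivity)]
  exact h3

end Cfsg.Agent.H466.RG
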